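import Mathlib
import Cfsg.Agent.H574.CNRad
import Cfsg.Agent.LieExceptional.CNSimple
import Cfsg.Agent.S0346

/-!
# CN-groups with a non-solvable simple normal subgroup are CIT-groups
-/

set_option autoImplicit false

namespace Cfsg.Agent.H574.CNRad

open Subgroup Cfsg

variable {G : Type*} [Group G] [Finite G]

omit [Finite G] in
theorem orderOf_cj (g x : G) : orderOf (g * x * g⁻¹) = orderOf x :=
  MulEquiv.orderOf_eq (MulAut.conj g) x

/-- no involution commutes with a non-identity element of odd order -/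
theorem cit (hCN : IsCNGroup G) {N : Subgroup G} (hN : N.Normal) (hNsim : IsSimpleGroup N)
    (hNs : ¬ Group.IsSolvable N) {t y : G} (ht : orderOf t = 2) (hy : (orderOf y).Coprime 2)
    (hty : t * y = y * t) : y = 1 := by
  by_contra hy1
  obtain ⟨H, hc, hyH, hnil⟩ := Cfsg.Agent.LieExceptional.CNSimple.exists_conf hCN ht hy hy1 hty
  have hNCN : IsCNGroup N := Cfsg.Agent.OddOrderLocal.CNBasic.isCNGroup_subgroup hCN N
  have hNeven : 2 ∣ Nat.card N := by
    by_contra h
    apply hNs
    apply Cfsg.Agent.S0183.result _ hNCN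
    rw [← Nat.not_even_iff_odd, even_iff_two_dvd]
    exact h
  obtain ⟨u, hu⟩ := exists_prime_orderOf_dvd_card' 2 hNeven
  obtain ⟨g, hg⟩ := Cfsg.Agent.LieExceptional.CCEven.exists_conj_mem hc
    (u := (u : G)) (by rw [Subgroup.orderOf_coe, hu])
  have hgN : g * u * g⁻¹ ∈ N := hN.conj_mem u u.2 g
  have hgo : orderOf (g * (u : G) * g⁻¹) = 2 := by
    rw [orderOf_cj, Subgroup.orderOf_coe, hu]
  have hc0 : Cfsg.Agent.LieExceptional.CCEven.Conf (H.subgroupOf N) := by
    refine ⟨?_, ?_, ?_⟩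
    · intro h hh hh1 x hx
      rw [mem_subgroupOf] at hh ⊢
      exact hc.cent h hh (fun e => hh1 (Subtype.ext e)) x (congrArg Subtype.val hx)
    · intro h hh hh1 x hx
      rw [mem_subgroupOf] at hh hx
      have h1 := hc.ti h hh (fun e => hh1 (Subtype.ext e)) x hx
      rw [mem_normalizer_iff] at h1 ⊢
      intro k
      rw [mem_subgroupOf, mem_subgroupOf]
      exact h1 k
    · have h1 : orderOf (⟨⟨g * u * g⁻¹, hgN⟩, mem_subgroupOf.2 hg⟩ : H.subgroupOf N) = 2 := by
        rw [Subgroup.orderOf_mk, Subgroup.orderOf_mk, hgo]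
      rw [← h1]
      exact orderOf_dvd_natCard _
  have hHtop : H.subgroupOf N ≠ ⊤ := by
    intro h
    rw [subgroupOf_eq_top] at h
    have := nil_of_le h hnil
    exact hNs inferInstance
  obtain ⟨hZ, hcard⟩ := Cfsg.Agent.LieExceptional.CCEven.isZassenhausGroup hc0 hHtop
  have : Fintype (N ⧸ Subgroup.normalizer ((H.subgroupOf N : Subgroup N) : Set N)) := Fintype.ofFinite _
  have hpp := Cfsg.Agent.S0346.result hZ
  rw [← Nat.card_eq_fintype_card, hcard, Nat.add_sub_cancel] at hpp
  obtain ⟨p, k, hp, hk, hpk⟩ := hpp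
  have hp' : p.Prime := hp.nat_prime
  have h2 : p = 2 := by
    have h3 : 2 ∣ p ^ k := by rw [hpk]; exact hc0.even
    exact ((Nat.prime_dvd_prime_iff_eq Nat.prime_two hp').1 (Nat.prime_two.dvd_of_dvd_pow h3)).symm
  subst h2
  have hle := Cfsg.Agent.LieExceptional.CCEven.two_le hc0 hHtop
  have hnorm : normalizer ((H.subgroupOf N : Subgroup N) : Set N) ≤ H.subgroupOf N := by
    intro n hn
    have hn' : (n : G) ∈ normalizer (H : Set G) := by
      have h1 : (⟨g * u * g⁻¹, hgN⟩ : N) ∈ H.subgroupOf N := mem_subgroupOf.2 hg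
      have h2 := (mem_normalizer_iff.1 hn _).1 h1
      rw [mem_subgroupOf] at h2
      refine hc.ti (g * u * g⁻¹) hg ?_ n h2
      intro e
      rw [e, orderOf_one] at hgo
      omega
    have h3 : (n : G) * y * (n : G)⁻¹ ∈ H := (mem_normalizer_iff.1 hn' y).1 hyH
    set c : G := (n : G) * y * (n : G)⁻¹ * y⁻¹ with hcdef
    have hcH : c ∈ H := H.mul_mem h3 (H.inv_mem hyH)
    have hcN : c ∈ N := by
      have : c = (n : G) * (y * (n : G)⁻¹ * y⁻¹) := by rw [hcdef]; group
      rw [this]
      exact N.mul_mem n.2 (hN.conj_mem _ (N.inv_mem n.2) y)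
    have hc2 : orderOf c ∣ 2 ^ k := by
      rw [hpk]
      have : orderOf (⟨⟨c, hcN⟩, mem_subgroupOf.2 hcH⟩ : H.subgroupOf N) = orderOf c := by
        rw [Subgroup.orderOf_mk, Subgroup.orderOf_mk]
      rw [← this]
      exact orderOf_dvd_natCard _
    have hcop : (orderOf c).Coprime (orderOf y) := (hy.pow_right k).symm.coprime_dvd_left hc2
    have hcomm : Commute c y :=
      Cfsg.Agent.OddOrderLocal.CNBasic.commute_of_mem_of_coprime hnil hcH hyH hcop
    have hcy : c * y = (n : G) * y * (n : G)⁻¹ := by rw [hcdef]; group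
    have ho := hcomm.orderOf_mul_eq_mul_orderOf_of_coprime hcop
    rw [hcy, orderOf_cj] at ho
    have hypos : 0 < orderOf y := orderOf_pos y
    have hc1 : orderOf c = 1 := by
      have : orderOf c * orderOf y = 1 * orderOf y := by rw [← ho, one_mul]
      exact Nat.eq_of_mul_eq_mul_right hypos this
    rw [orderOf_eq_one_iff] at hc1
    rw [hc1, one_mul] at hcy
    rw [mem_subgroupOf]
    apply hc.cent y hyH hy1
    calc (n : G) * y = ((n : G) * y * (n : G)⁻¹) * n := by group
      _ = y * n := by rw [← hcy]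
  rw [Subgroup.relIndex_eq_one.2 hnorm] at hle
  omega

omit [Finite G] in
/-- no 2-element commutes with a non-identity element of odd order -/
theorem cit_two (hCIT : ∀ t y : G, orderOf t = 2 → (orderOf y).Coprime 2 → t * y = y * t → y = 1)
    {a y : G} (ha : a ≠ 1) {k : ℕ} (hk : a ^ 2 ^ k = 1) (hy : (orderOf y).Coprime 2)
    (hay : a * y = y * a) : y = 1 := by
  have h1 : orderOf a ∣ 2 ^ k := orderOf_dvd_of_pow_eq_one hk
  obtain ⟨l, hl, hl2⟩ := (Nat.dvd_prime_pow Nat.prime_two).1 h1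
  have hl0 : l ≠ 0 := by
    rintro rfl
    rw [pow_zero, orderOf_eq_one_iff] at hl2
    exact ha hl2
  obtain ⟨m, rfl⟩ := Nat.exists_eq_succ_of_ne_zero hl0
  apply hCIT (a ^ 2 ^ m) y _ hy
  · exact (show Commute a y from hay).pow_left _
  · rw [orderOf_pow' a (by positivity), hl2, Nat.succ_eq_add_one]
    rw [Nat.gcd_eq_right (pow_dvd_pow 2 (Nat.le_succ m)), pow_succ]
    exact Nat.mul_div_cancel_left 2 (by positivity)

/-- the centraliser of an involution is a 2-group -/
theorem card_centralizer_two (hCIT : ∀ t y : G, orderOf t = 2 → (orderOf y).Coprime 2 → t * y = y * t → y = 1)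
    {t : G} (ht : orderOf t = 2) : ∃ k, Nat.card (centralizer ({t} : Set G)) = 2 ^ k := by
  have : Fact (Nat.Prime 2) := ⟨Nat.prime_two⟩
  apply IsPGroup.iff_card.1
  intro g
  obtain ⟨a, b, -, hb, hab, ⟨k, hk⟩, hb2⟩ :=
    Cfsg.Agent.OddOrderLocal.CNBasic.exists_mul_parts Nat.prime_two (g : G)
  have h1 : (g : G) * t = t * g := mem_centralizer_singleton_iff.1 g.2
  have hb1 : b = 1 := by
    apply hCIT t b ht hb2
    obtain ⟨n, hn⟩ := mem_zpowers_iff.1 hb
    rw [← hn]
    exact ((show Commute (g : G) t from h1).zpow_left n).eq.symm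
  refine ⟨k, Subtype.ext ?_⟩
  rw [Subgroup.coe_pow, ← hab, hb1, mul_one]
  exact hk

/-- the centraliser of a non-identity element of odd order has odd order -/
theorem card_centralizer_odd (hCIT : ∀ t y : G, orderOf t = 2 → (orderOf y).Coprime 2 → t * y = y * t → y = 1)
    {y : G} (hy : (orderOf y).Coprime 2) (hy1 : y ≠ 1) : ¬ 2 ∣ Nat.card (centralizer ({y} : Set G)) := by
  intro h
  obtain ⟨t, ht⟩ := exists_prime_orderOf_dvd_card' 2 h
  apply hy1
  apply hCIT t y (by rw [Subgroup.orderOf_coe, ht]) hy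
  exact mem_centralizer_singleton_iff.1 t.2

omit [Finite G] in
/-- if the `G`-conjugates of `y ∈ N` are its `N`-conjugates then `|G : N|` divides `|C_G(y)|` -/
theorem index_dvd [Finite G] {N : Subgroup G} (hN : N.Normal) {y : G}
    (h : ∀ g : G, ∃ n ∈ N, n * y * n⁻¹ = g * y * g⁻¹) : N.index ∣ Nat.card (centralizer ({y} : Set G)) := by
  have hsup : N ⊔ centralizer ({y} : Set G) = ⊤ := by
    rw [eq_top_iff]
    intro g _
    obtain ⟨n, hn, hng⟩ := h g
    have h1 : n⁻¹ * g ∈ centralizer ({y} : Set G) := by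
      rw [mem_centralizer_singleton_iff]
      calc n⁻¹ * g * y = n⁻¹ * (g * y * g⁻¹) * g := by group
        _ = n⁻¹ * (n * y * n⁻¹) * g := by rw [hng]
        _ = y * (n⁻¹ * g) := by group
    have h2 : g = n * (n⁻¹ * g) := by group
    rw [h2]
    exact mul_mem (mem_sup_left hn) (mem_sup_right h1)
  have h1 : N.index = N.relIndex (centralizer ({y} : Set G)) := by
    rw [← relIndex_sup_left (centralizer ({y} : Set G)) N, hsup, relIndex_top_right]
  rw [h1]
  exact Subgroup.relIndex_dvd_card _ _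

end Cfsg.Agent.H574.CNRad
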