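import Mathlib

/-!
# Elements of order three of `PSL₂(F)`

`F` a finite field. If `3 ≠ 0` in `F`, all elements of order 3 of `PSL₂(F)` are conjugate; in any case there are at
most two classes of them.
-/

set_option autoImplicit false

namespace Cfsg.Agent.H574.PslThree

open Matrix

variable {F : Type*} [Field F]

/-- the companion matrix of `x² + x + 1` -/
def Cm (F : Type*) [Field F] : Matrix (Fin 2) (Fin 2) F := !![0, -1; 1, -1]

/-- non-scalar -/
def NS (A : Matrix (Fin 2) (Fin 2) F) : Prop := A 0 1 ≠ 0 ∨ A 1 0 ≠ 0 ∨ A 0 0 ≠ A 1 1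

theorem exists_frame {A : Matrix (Fin 2) (Fin 2) F} (hdet : A.det = 1) (htr : A 0 0 + A 1 1 = -1) (hns : NS A) :
    ∃ P : Matrix (Fin 2) (Fin 2) F, P.det ≠ 0 ∧ A * P = P * Cm F := by
  have hd : A 0 0 * A 1 1 - A 0 1 * A 1 0 = 1 := by rw [← hdet, Matrix.det_fin_two]
  have key : ∀ v w : F, (v * (A 1 0 * v + A 1 1 * w) - (A 0 0 * v + A 0 1 * w) * w ≠ 0) →
      ∃ P : Matrix (Fin 2) (Fin 2) F, P.det ≠ 0 ∧ A * P = P * Cm F := by
    intro v w h
    refine ⟨!![v, A 0 0 * v + A 0 1 * w; w, A 1 0 * v + A 1 1 * w], ?_, ?_⟩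
    · rwa [Matrix.det_fin_two_of]
    · have h1 : A 1 1 = -1 - A 0 0 := by linear_combination htr
      have h2 : A 0 1 * A 1 0 = -(A 0 0 * A 0 0) - A 0 0 - 1 := by
        rw [h1] at hd
        linear_combination -hd
      ext i j
      fin_cases i <;> fin_cases j <;>
        simp [Matrix.mul_apply, Fin.sum_univ_two, Cm]
      · rw [h1]
        linear_combination v * h2
      · rw [h1]
        linear_combination w * h2
  rcases hns with h | h | h
  · apply key 0 1
    simpa using h
  · apply key 1 0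
    simpa using h
  · by_cases h01 : A 0 1 = 0
    · by_cases h10 : A 1 0 = 0
      · apply key 1 1
        rw [h01, h10]
        intro h2
        apply h
        linear_combination -h2
      · apply key 1 0
        simpa using h10
    · apply key 0 1
      simpa using h01

theorem conj_of_norm {A B P Q : Matrix (Fin 2) (Fin 2) F} (hP : P.det ≠ 0) (hAP : A * P = P * Cm F)
    (hBQ : B * Q = Q * Cm F) {a b : F} (hab : (a * a - a * b + b * b) * (P.det * Q.det) = 1) :
    ∃ R : Matrix (Fin 2) (Fin 2) F, R.det = 1 ∧ R * A = B * R := by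
  set D : Matrix (Fin 2) (Fin 2) F := a • 1 + b • Cm F with hD
  have hDC : D * Cm F = Cm F * D := by
    rw [hD, add_mul, mul_add]
    simp
  have hadj : P.adjugate * A = Cm F * P.adjugate := by
    have h1 : P.det • (P.adjugate * A) = P.det • (Cm F * P.adjugate) := by
      calc P.det • (P.adjugate * A) = P.adjugate * A * (P * P.adjugate) := by
            rw [Matrix.mul_adjugate]; simp
        _ = P.adjugate * (A * P) * P.adjugate := by simp only [Matrix.mul_assoc]
        _ = (P.adjugate * P) * Cm F * P.adjugate := by rw [hAP]; simp only [Matrix.mul_assoc]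
        _ = P.det • (Cm F * P.adjugate) := by rw [Matrix.adjugate_mul]; simp
    exact smul_right_injective _ hP h1
  refine ⟨Q * D * P.adjugate, ?_, ?_⟩
  · rw [Matrix.det_mul, Matrix.det_mul, Matrix.det_adjugate]
    have h1 : D.det = a * a - a * b + b * b := by
      rw [hD, Matrix.det_fin_two]
      simp [Cm]
      ring
    rw [h1]
    simp
    linear_combination hab
  · calc Q * D * P.adjugate * A = Q * D * (P.adjugate * A) := by simp only [Matrix.mul_assoc]
      _ = Q * (D * Cm F) * P.adjugate := by rw [hadj]; simp only [Matrix.mul_assoc]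
      _ = Q * Cm F * (D * P.adjugate) := by rw [hDC]; simp only [Matrix.mul_assoc]
      _ = B * (Q * D * P.adjugate) := by rw [← hBQ]; simp only [Matrix.mul_assoc]

section Finite

variable [Finite F]

/-- the norm form `a² - ab + b²` is universal in characteristic `≠ 3` -/
theorem exists_norm (h3 : (3 : F) ≠ 0) (d : F) : ∃ a b : F, a * a - a * b + b * b = d := by
  have : Fintype F := Fintype.ofFinite F
  by_cases h2 : (2 : F) = 0
  · have hr : ringChar F = 2 := by
      have h0 : ((2 : ℕ) : F) = 0 := by exact_mod_cast h2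
      have h1 := ringChar.dvd h0
      rcases (Nat.dvd_prime Nat.prime_two).1 h1 with h | h
      · exfalso
        exact (CharP.ringChar_ne_one (R := F)) h
      · exact h
    obtain ⟨r, hr⟩ := FiniteField.isSquare_of_char_two hr d
    exact ⟨r, 0, by rw [hr]; ring⟩
  · have hodd : ringChar F ≠ 2 := by
      intro h
      apply h2
      have := ringChar.Nat.cast_ringChar (R := F)
      rw [h] at this
      exact_mod_cast this
    obtain ⟨x, y, hxy⟩ := FiniteField.exists_root_sum_quadratic (R := F)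
      (f := Polynomial.C 1 * Polynomial.X ^ 2 + Polynomial.C 0 * Polynomial.X + Polynomial.C (-d))
      (g := Polynomial.C 3 * Polynomial.X ^ 2 + Polynomial.C 0 * Polynomial.X + Polynomial.C 0)
      (Polynomial.degree_quadratic one_ne_zero) (Polynomial.degree_quadratic h3)
      (by
        have h1 := FiniteField.odd_card_of_char_ne_two hodd
        omega)
    refine ⟨x + y, 2 * y, ?_⟩
    simp at hxy
    linear_combination hxy

end Finite

/-- a lift of an element of order three of `PSL₂(F)` -/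
theorem exists_lift {x : ProjectiveSpecialLinearGroup (Fin 2) F} (hx : orderOf x = 3) :
    ∃ A : SpecialLinearGroup (Fin 2) F, (QuotientGroup.mk A : ProjectiveSpecialLinearGroup (Fin 2) F) = x ∧
      (A : Matrix (Fin 2) (Fin 2) F) 0 0 + (A : Matrix (Fin 2) (Fin 2) F) 1 1 = -1 ∧
      NS (A : Matrix (Fin 2) (Fin 2) F) := by
  obtain ⟨X, rfl⟩ := QuotientGroup.mk_surjective x
  have hx3 : (QuotientGroup.mk X : ProjectiveSpecialLinearGroup (Fin 2) F) ^ 3 = 1 := by
    rw [← hx, pow_orderOf_eq_one]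
  have hx1 : (QuotientGroup.mk X : ProjectiveSpecialLinearGroup (Fin 2) F) ≠ 1 := by
    intro h
    rw [h, orderOf_one] at hx
    omega
  have hc : X ^ 3 ∈ Subgroup.center (SpecialLinearGroup (Fin 2) F) := by
    rw [← QuotientGroup.eq_one_iff, QuotientGroup.mk_pow]
    exact hx3
  have hc2 : ∀ Z ∈ Subgroup.center (SpecialLinearGroup (Fin 2) F), Z * Z = 1 := by
    intro Z hZ
    obtain ⟨r, hr, hrZ⟩ := Matrix.SpecialLinearGroup.mem_center_iff.1 hZ
    rw [Fintype.card_fin] at hr
    apply Subtype.ext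
    rw [Matrix.SpecialLinearGroup.coe_mul, ← hrZ, Matrix.SpecialLinearGroup.coe_one]
    rw [← map_mul, ← pow_two, hr, map_one]
  set A : SpecialLinearGroup (Fin 2) F := X ^ 4 with hA
  have hA3 : A ^ 3 = 1 := by
    calc A ^ 3 = (X ^ 3 * X ^ 3) * (X ^ 3 * X ^ 3) := by rw [hA]; group
      _ = 1 := by rw [hc2 _ hc, one_mul]
  have hAx : (QuotientGroup.mk A : ProjectiveSpecialLinearGroup (Fin 2) F) = QuotientGroup.mk X := by
    rw [hA, QuotientGroup.mk_pow, pow_succ, hx3, one_mul]
  have hns : NS (A : Matrix (Fin 2) (Fin 2) F) := by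
    by_contra h
    rw [NS] at h
    push Not at h
    obtain ⟨h01, h10, h00⟩ := h
    apply hx1
    rw [← hAx, QuotientGroup.eq_one_iff, Matrix.SpecialLinearGroup.mem_center_iff]
    have hd : (A : Matrix (Fin 2) (Fin 2) F).det = 1 := A.2
    rw [Matrix.det_fin_two, h01, h00] at hd
    refine ⟨(A : Matrix (Fin 2) (Fin 2) F) 1 1, ?_, ?_⟩
    · rw [Fintype.card_fin]
      linear_combination hd
    · ext i j
      fin_cases i <;> fin_cases j <;> simp [h01, h10, h00]
  refine ⟨A, hAx, ?_, hns⟩
  have hd : (A : Matrix (Fin 2) (Fin 2) F).det = 1 := A.2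
  rw [Matrix.det_fin_two] at hd
  have h3 : (A : Matrix (Fin 2) (Fin 2) F) * A * A = 1 := by
    have := congrArg (fun M : SpecialLinearGroup (Fin 2) F => (M : Matrix (Fin 2) (Fin 2) F)) hA3
    simpa [pow_succ] using this
  set a := (A : Matrix (Fin 2) (Fin 2) F) 0 0
  set b := (A : Matrix (Fin 2) (Fin 2) F) 0 1
  set c := (A : Matrix (Fin 2) (Fin 2) F) 1 0
  set d := (A : Matrix (Fin 2) (Fin 2) F) 1 1
  have e00 := congrFun (congrFun h3 0) 0
  have e01 := congrFun (congrFun h3 0) 1
  have e10 := congrFun (congrFun h3 1) 0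
  have e11 := congrFun (congrFun h3 1) 1
  simp only [Matrix.mul_apply, Fin.sum_univ_two, Matrix.one_apply] at e00 e01 e10 e11
  norm_num at e00 e01 e10 e11
  change (a * a + b * c) * a + (a * b + b * d) * c = 1 at e00
  change (a * a + b * c) * b + (a * b + b * d) * d = 0 at e01
  change (c * a + d * c) * a + (c * b + d * d) * c = 0 at e10
  change (c * a + d * c) * b + (c * b + d * d) * d = 1 at e11
  have f00 : ((a + d) ^ 2 - 1) * a = (a + d) + 1 := by linear_combination e00 + (2 * a + d) * hd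
  have f11 : ((a + d) ^ 2 - 1) * d = (a + d) + 1 := by linear_combination e11 + (a + 2 * d) * hd
  have f01 : ((a + d) ^ 2 - 1) * b = 0 := by linear_combination e01 + b * hd
  have f10 : ((a + d) ^ 2 - 1) * c = 0 := by linear_combination e10 + c * hd
  have ht : (a + d) ^ 2 - 1 = 0 := by
    rcases hns with h | h | h
    · exact (mul_eq_zero.1 f01).resolve_right h
    · exact (mul_eq_zero.1 f10).resolve_right h
    · have : ((a + d) ^ 2 - 1) * (a - d) = 0 := by linear_combination f00 - f11
      exact (mul_eq_zero.1 this).resolve_right (sub_ne_zero.2 h)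
  linear_combination ht * a - f00

theorem exists_conj_psl [Finite F] (h3 : (3 : F) ≠ 0) {x y : ProjectiveSpecialLinearGroup (Fin 2) F}
    (hx : orderOf x = 3) (hy : orderOf y = 3) : ∃ g, g * x * g⁻¹ = y := by
  obtain ⟨A, rfl, hA, hA'⟩ := exists_lift hx
  obtain ⟨B, rfl, hB, hB'⟩ := exists_lift hy
  obtain ⟨P, hP, hAP⟩ := exists_frame A.2 hA hA'
  obtain ⟨Q, hQ, hBQ⟩ := exists_frame B.2 hB hB'
  obtain ⟨a, b, hab⟩ := exists_norm h3 (P.det * Q.det)⁻¹
  obtain ⟨R, hR, hRA⟩ := conj_of_norm hP hAP hBQ (a := a) (b := b)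
    (by rw [hab]; exact inv_mul_cancel₀ (mul_ne_zero hP hQ))
  let R' : SpecialLinearGroup (Fin 2) F := ⟨R, hR⟩
  have hRA' : R' * A = B * R' := Subtype.ext hRA
  refine ⟨QuotientGroup.mk R', ?_⟩
  rw [mul_inv_eq_iff_eq_mul, ← QuotientGroup.mk_mul, hRA', QuotientGroup.mk_mul]

/-- at most two classes of elements of order three -/
theorem exists_conj_psl_three [Finite F] {x y z : ProjectiveSpecialLinearGroup (Fin 2) F}
    (hx : orderOf x = 3) (hy : orderOf y = 3) (hz : orderOf z = 3) :
    (∃ g, g * x * g⁻¹ = y) ∨ (∃ g, g * x * g⁻¹ = z) ∨ ∃ g, g * y * g⁻¹ = z := by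
  have : Fintype F := Fintype.ofFinite F
  have key : ∀ {A B : SpecialLinearGroup (Fin 2) F} {P Q : Matrix (Fin 2) (Fin 2) F}, P.det ≠ 0 → Q.det ≠ 0 →
      (A : Matrix (Fin 2) (Fin 2) F) * P = P * Cm F → (B : Matrix (Fin 2) (Fin 2) F) * Q = Q * Cm F →
      IsSquare (P.det * Q.det) → ∃ g : ProjectiveSpecialLinearGroup (Fin 2) F,
        g * QuotientGroup.mk A * g⁻¹ = QuotientGroup.mk B := by
    intro A B P Q hP hQ hAP hBQ ⟨r, hr⟩
    have hr0 : r ≠ 0 := by
      rintro rfl
      rw [mul_zero] at hr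
      exact mul_ne_zero hP hQ hr
    obtain ⟨R, hR, hRA⟩ := conj_of_norm hP hAP hBQ (a := r⁻¹) (b := 0)
      (by rw [hr]; field_simp; ring)
    let R' : SpecialLinearGroup (Fin 2) F := ⟨R, hR⟩
    have hRA' : R' * A = B * R' := Subtype.ext hRA
    refine ⟨QuotientGroup.mk R', ?_⟩
    rw [mul_inv_eq_iff_eq_mul, ← QuotientGroup.mk_mul, hRA', QuotientGroup.mk_mul]
  obtain ⟨A, rfl, hA, hA'⟩ := exists_lift hx
  obtain ⟨B, rfl, hB, hB'⟩ := exists_lift hy
  obtain ⟨C, rfl, hC, hC'⟩ := exists_lift hz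
  obtain ⟨P, hP, hAP⟩ := exists_frame A.2 hA hA'
  obtain ⟨Q, hQ, hBQ⟩ := exists_frame B.2 hB hB'
  obtain ⟨R, hR, hCR⟩ := exists_frame C.2 hC hC'
  by_cases h1 : IsSquare (P.det * Q.det)
  · exact Or.inl (key hP hQ hAP hBQ h1)
  by_cases h2 : IsSquare (P.det * R.det)
  · exact Or.inr (Or.inl (key hP hR hAP hCR h2))
  right; right
  apply key hQ hR hBQ hCR
  have hch : ringChar F ≠ 2 := fun h => h1 (FiniteField.isSquare_of_char_two h _)
  classical
  have e1 := quadraticChar_neg_one_iff_not_isSquare.2 h1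
  have e2 := quadraticChar_neg_one_iff_not_isSquare.2 h2
  have hne : Q.det * R.det ≠ 0 := mul_ne_zero hQ hR
  rw [← quadraticChar_one_iff_isSquare hne]
  have h4 : quadraticChar F (P.det * Q.det) * quadraticChar F (P.det * R.det) = 1 := by
    rw [e1, e2]; norm_num
  rw [← map_mul] at h4
  have h5 : P.det * Q.det * (P.det * R.det) = P.det ^ 2 * (Q.det * R.det) := by ring
  rw [h5, map_mul, map_pow, quadraticChar_sq_one hP, one_mul] at h4
  exact h4

end Cfsg.Agent.H574.PslThree
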