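import Mathlib
import Cfsg.Agent.H574.CNCit
import Cfsg.Agent.H574.PslThree
import Cfsg.Agent.H574.PslThreeFour
import Cfsg.Agent.S0337
import Cfsg.Agent.S0820
import Cfsg.Agent.ThreePrime.Main
import Cfsg.Agent.ThreePrime.SzRel
import Cfsg.Agent.ThreePrime.OrderThree
import Cfsg.Agent.OddCyclic.FFSz
import Cfsg.Agent.Lib.PSL2Torus
import Cfsg.Agent.WeakTI.PslTwo
import Cfsg.Agent.SmallSimple.PSLTwoPart
import Cfsg.Agent.S0144

/-!
# CN-groups with trivial solvable radical

They are simple or contain `PSL₂(9)` as a subgroup of index 2.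
-/

set_option autoImplicit false

namespace Cfsg.Agent.H574.CNRad

open Subgroup Cfsg

variable {G : Type*} [Group G] [Finite G]

/-- conjugacy of the elements of order `k` -/
def OneCl (K : Type*) [Group K] (k : ℕ) : Prop :=
  ∀ x y : K, orderOf x = k → orderOf y = k → ∃ g : K, g * x * g⁻¹ = y

omit [Finite G] in
theorem conj_of_oneCl {N : Subgroup G} (hN : N.Normal) {k : ℕ} (h : OneCl N k) {t : N} (ht : orderOf t = k) (g : G) :
    ∃ n ∈ N, n * t * n⁻¹ = g * t * g⁻¹ := by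
  obtain ⟨n, hn⟩ := h t ⟨g * t * g⁻¹, hN.conj_mem t t.2 g⟩ ht (by
    rw [Subgroup.orderOf_mk, orderOf_cj, Subgroup.orderOf_coe, ht])
  exact ⟨n, n.2, congrArg Subtype.val hn⟩

/-- the index is a power of two if `N` has one class of involutions -/
theorem index_dvd_two (hCIT : ∀ t y : G, orderOf t = 2 → (orderOf y).Coprime 2 → t * y = y * t → y = 1)
    {N : Subgroup G} (hN : N.Normal) (h2 : OneCl N 2) (d2 : 2 ∣ Nat.card N) : ∃ k, N.index ∣ 2 ^ k := by
  obtain ⟨t, ht⟩ := exists_prime_orderOf_dvd_card' 2 d2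
  obtain ⟨k, hk⟩ := card_centralizer_two hCIT (t := (t : G)) (by rw [Subgroup.orderOf_coe, ht])
  refine ⟨k, ?_⟩
  rw [← hk]
  exact index_dvd hN (conj_of_oneCl hN h2 ht)

theorem eq_top_of_classes (hCIT : ∀ t y : G, orderOf t = 2 → (orderOf y).Coprime 2 → t * y = y * t → y = 1)
    {N : Subgroup G} (hN : N.Normal) (h2 : OneCl N 2) (h3 : OneCl N 3) (d2 : 2 ∣ Nat.card N)
    (d3 : 3 ∣ Nat.card N) : N = ⊤ := by
  have : Fact (Nat.Prime 3) := ⟨Nat.prime_three⟩
  obtain ⟨k, hk⟩ := index_dvd_two hCIT hN h2 d2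
  obtain ⟨y, hy⟩ := exists_prime_orderOf_dvd_card' 3 d3
  have hyG : orderOf (y : G) = 3 := by rw [Subgroup.orderOf_coe, hy]
  have h5 := index_dvd hN (conj_of_oneCl hN h3 hy)
  have h6 := card_centralizer_odd hCIT (y := (y : G)) (by rw [hyG]; norm_num) (by
    intro h; rw [h, orderOf_one] at hyG; omega)
  obtain ⟨j, -, hj⟩ := (Nat.dvd_prime_pow Nat.prime_two).1 hk
  rw [← Subgroup.index_eq_one]
  rcases Nat.eq_zero_or_pos j with rfl | hj0
  · simpa using hj
  · exfalso
    apply h6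
    refine Dvd.dvd.trans ?_ h5
    rw [hj]
    exact dvd_pow_self 2 hj0.ne'

/-- two classes of elements of order three: the index is at most two -/
theorem index_le_two (hCIT : ∀ t y : G, orderOf t = 2 → (orderOf y).Coprime 2 → t * y = y * t → y = 1)
    {N : Subgroup G} (hN : N.Normal) (h2 : OneCl N 2)
    (h3 : ∀ x y z : N, orderOf x = 3 → orderOf y = 3 → orderOf z = 3 →
      (∃ g, g * x * g⁻¹ = y) ∨ (∃ g, g * x * g⁻¹ = z) ∨ ∃ g, g * y * g⁻¹ = z)
    (d2 : 2 ∣ Nat.card N) (d3 : 3 ∣ Nat.card N) : N = ⊤ ∨ N.index = 2 := by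
  have : Fact (Nat.Prime 3) := ⟨Nat.prime_three⟩
  obtain ⟨k, hk⟩ := index_dvd_two hCIT hN h2 d2
  obtain ⟨y, hy⟩ := exists_prime_orderOf_dvd_card' 3 d3
  have hyG : orderOf (y : G) = 3 := by rw [Subgroup.orderOf_coe, hy]
  have h6 := card_centralizer_odd hCIT (y := (y : G)) (by rw [hyG]; norm_num) (by
    intro h; rw [h, orderOf_one] at hyG; omega)
  have hCN : centralizer ({(y : G)} : Set G) ≤ N := by
    rw [← Subgroup.relIndex_eq_one]
    have h7 : N.relIndex (centralizer ({(y : G)} : Set G)) ∣ 2 ^ k := (relIndex_dvd_index_of_normal _ _).trans hk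
    have h8 := Subgroup.relIndex_dvd_card N (centralizer ({(y : G)} : Set G))
    obtain ⟨j, -, hj⟩ := (Nat.dvd_prime_pow Nat.prime_two).1 h7
    rcases Nat.eq_zero_or_pos j with rfl | hj0
    · simpa using hj
    · exfalso
      apply h6
      refine Dvd.dvd.trans ?_ h8
      rw [hj]
      exact dvd_pow_self 2 hj0.ne'
  -- elements conjugating `y` to an `N`-conjugate of `y` lie in `N`
  have hmem : ∀ a b n : G, n ∈ N → n * (a * y * a⁻¹) * n⁻¹ = b * y * b⁻¹ → b⁻¹ * a ∈ N := by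
    intro a b n hn h
    have h1 : b⁻¹ * n * a ∈ N := by
      apply hCN
      rw [mem_centralizer_singleton_iff]
      calc b⁻¹ * n * a * y = b⁻¹ * (n * (a * y * a⁻¹) * n⁻¹) * (n * a) := by group
        _ = b⁻¹ * (b * y * b⁻¹) * (n * a) := by rw [h]
        _ = y * (b⁻¹ * n * a) := by group
    have h2 : b⁻¹ * n⁻¹ * b ∈ N := by
      have := hN.conj_mem n⁻¹ (N.inv_mem hn) b⁻¹
      simpa using this
    have h3 : b⁻¹ * a = (b⁻¹ * n⁻¹ * b) * (b⁻¹ * n * a) := by group
    rw [h3]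
    exact N.mul_mem h2 h1
  have key : ∀ a b : G, a ∉ N → b ∉ N → b⁻¹ * a ∈ N := by
    intro a b ha hb
    have hya : orderOf (⟨a * y * a⁻¹, hN.conj_mem y y.2 a⟩ : N) = 3 := by
      rw [Subgroup.orderOf_mk, orderOf_cj, hyG]
    have hyb : orderOf (⟨b * y * b⁻¹, hN.conj_mem y y.2 b⟩ : N) = 3 := by
      rw [Subgroup.orderOf_mk, orderOf_cj, hyG]
    rcases h3 y _ _ hy hya hyb with ⟨n, hn⟩ | ⟨n, hn⟩ | ⟨n, hn⟩
    · exfalso
      apply ha
      have h1 : (n : G) * (1 * y * 1⁻¹) * (n : G)⁻¹ = a * y * a⁻¹ := by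
        have := congrArg Subtype.val hn
        simpa using this
      have h2 := hmem 1 a n n.2 h1
      simpa using h2
    · exfalso
      apply hb
      have h1 : (n : G) * (1 * y * 1⁻¹) * (n : G)⁻¹ = b * y * b⁻¹ := by
        have := congrArg Subtype.val hn
        simpa using this
      have h2 := hmem 1 b n n.2 h1
      simpa using h2
    · exact hmem a b n n.2 (congrArg Subtype.val hn)
  by_cases htop : N = ⊤
  · exact Or.inl htop
  right
  obtain ⟨a, ha⟩ : ∃ a, a ∉ N := by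
    by_contra h
    push Not at h
    exact htop (eq_top_iff.2 fun g _ => h g)
  rw [Subgroup.index_eq_two_iff]
  refine ⟨a, fun b => ?_⟩
  by_cases hb : b ∈ N
  · right
    refine ⟨hb, fun h => ha ?_⟩
    exact (N.mul_mem_cancel_left hb).1 h
  · left
    refine ⟨?_, hb⟩
    have := key a b⁻¹ ha (fun h => hb (by simpa using N.inv_mem h))
    simpa using this

theorem eq_top_of_suzuki (hCIT : ∀ t y : G, orderOf t = 2 → (orderOf y).Coprime 2 → t * y = y * t → y = 1)
    {N : Subgroup G} (hN : N.Normal) (hc : centralizer (N : Set G) = ⊥) (h : Cfsg.Lie.IsoSuzuki N)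
    (d2 : 2 ∣ Nat.card N) : N = ⊤ := by
  have : Fact (Nat.Prime 2) := ⟨Nat.prime_two⟩
  have h2 : OneCl N 2 := by
    intro x y hx hy
    have hsq : ∀ x : N, orderOf x = 2 → x ≠ 1 ∧ x * x = 1 := by
      intro x hx
      refine ⟨fun h => by rw [h, orderOf_one] at hx; omega, ?_⟩
      rw [← pow_two, ← hx, pow_orderOf_eq_one]
    exact Cfsg.Agent.OddCyclic.FFSz.conj_inv h (hsq x hx).2 (hsq x hx).1 (hsq y hy).2 (hsq y hy).1
  obtain ⟨k, hk⟩ := index_dvd_two hCIT hN h2 d2
  obtain ⟨P⟩ : Nonempty (Sylow 2 N) := inferInstance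
  obtain ⟨D, hD⟩ := Cfsg.Agent.ThreePrime.SzRel.exists_szData h P
  obtain ⟨T⟩ : Nonempty (Sylow 2 G) := inferInstance
  have hTN : (T : Subgroup G) ≤ N := by
    intro t ht
    obtain ⟨n, hn⟩ := T.isPGroup' ⟨t, ht⟩
    have hn' : t ^ 2 ^ n = 1 := congrArg Subtype.val hn
    obtain ⟨j, hj⟩ := hD.inner (MulAut.conjNormal t) ⟨n, by rw [← map_pow, hn', map_one]⟩
    have h1 : (j : G)⁻¹ * t ∈ centralizer (N : Set G) := by
      rw [mem_centralizer_iff]
      intro g hg
      have h2 : ((MulAut.conjNormal t : MulAut N) ⟨g, hg⟩ : G) = ((MulAut.conj j ⟨g, hg⟩ : N) : G) := by rw [hj]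
      rw [MulAut.conjNormal_apply] at h2
      have h3 : t * g * t⁻¹ = (j : G) * g * (j : G)⁻¹ := h2
      have h4 : (j : G)⁻¹ * (t * g * t⁻¹) * t = g * ((j : G)⁻¹ * t) := by rw [h3]; group
      rw [← h4]; group
    rw [hc, mem_bot] at h1
    have h5 : t = j := by
      calc t = j * ((j : G)⁻¹ * t) := by group
        _ = j := by rw [h1, mul_one]
    rw [h5]; exact j.2
  have h6 : ¬ 2 ∣ N.index := by
    intro h
    exact T.not_dvd_index (h.trans (index_dvd_of_le hTN))
  obtain ⟨j, -, hj⟩ := (Nat.dvd_prime_pow Nat.prime_two).1 hk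
  rw [← Subgroup.index_eq_one]
  rcases Nat.eq_zero_or_pos j with rfl | hj0
  · simpa using hj
  · exfalso
    apply h6
    rw [hj]
    exact dvd_pow_self 2 hj0.ne'

/-- the list of simple CN-groups -/
def LList (K : Type*) [Group K] : Prop :=
  (∃ (F : Type) (_ : Field F) (_ : Fintype F) (n : ℕ), 2 ≤ n ∧ Fintype.card F = 2 ^ n ∧
    Nonempty (K ≃* Matrix.ProjectiveSpecialLinearGroup (Fin 2) F)) ∨
  (∃ (F : Type) (_ : Field F) (_ : Fintype F), Fintype.card F = 9 ∧
    Nonempty (K ≃* Matrix.ProjectiveSpecialLinearGroup (Fin 2) F)) ∨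
  (∃ (F : Type) (_ : Field F) (_ : Fintype F), (Fintype.card F).Prime ∧ 5 ≤ Fintype.card F ∧
    Nonempty (K ≃* Matrix.ProjectiveSpecialLinearGroup (Fin 2) F)) ∨
  (∃ (F : Type) (_ : Field F) (_ : Fintype F), Fintype.card F = 4 ∧
    Nonempty (K ≃* Matrix.ProjectiveSpecialLinearGroup (Fin 3) F)) ∨
  Cfsg.Lie.IsoSuzuki K

theorem orderOf_congr' {K L : Type*} [Group K] [Group L] (e : K ≃* L) (x : K) : orderOf (e x) = orderOf x :=
  MulEquiv.orderOf_eq e x

theorem OneCl.of_equiv {K L : Type*} [Group K] [Group L] (e : K ≃* L) {k : ℕ} (h : OneCl L k) : OneCl K k := by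
  intro x y hx hy
  obtain ⟨g, hg⟩ := h (e x) (e y) (by rw [orderOf_congr', hx]) (by rw [orderOf_congr', hy])
  refine ⟨e.symm g, e.injective ?_⟩
  rw [map_mul, map_mul, map_inv, e.apply_symm_apply, hg]

theorem sq_of {K : Type*} [Group K] {x : K} (hx : orderOf x = 2) : x ≠ 1 ∧ x * x = 1 := by
  refine ⟨fun h => by rw [h, orderOf_one] at hx; omega, ?_⟩
  rw [← pow_two, ← hx, pow_orderOf_eq_one]

/-- a CN-simple group is on the list -/
theorem llist_of {K : Type*} [Group K] [Finite K] (hsim : IsSimpleGroup K) (hns : ¬ Group.IsSolvable K)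
    (hCN : IsCNGroup K) : LList K := by
  have hnab : ∃ a b : K, a * b ≠ b * a := by
    by_contra h
    push Not at h
    exact hns (IsSimpleGroup.comm_iff_isSolvable.1 h)
  have hsol : ∀ a b : ℕ, Nat.card K ≠ 2 ^ a * 3 ^ b := fun a b h =>
    hns (Cfsg.Agent.S0144.result 2 3 a b Nat.prime_two Nat.prime_three h)
  rcases Cfsg.Agent.S0337.result hnab hCN with ⟨F, i1, i2, hF, ⟨e⟩⟩ | ⟨F, i1, i2, hF, ⟨e⟩⟩ | h
  · have hcard := Nat.card_congr e.toEquiv
    rcases hF with hF | ⟨n, hF⟩ | ⟨hp, -⟩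
    · exact Or.inr (Or.inl ⟨F, i1, i2, hF, ⟨e⟩⟩)
    · refine Or.inl ⟨F, i1, i2, n, ?_, hF, ⟨e⟩⟩
      by_contra hn
      have hn1 : n = 0 ∨ n = 1 := by omega
      rcases hn1 with rfl | rfl
      · have := Fintype.one_lt_card (α := F)
        rw [hF] at this
        norm_num at this
      · have h1 := Cfsg.Agent.SmallSimple.PSLTwoPart.card_psl_two_even (F := F) (by rw [hF]; decide)
        rw [hF] at h1
        apply hsol 1 1
        rw [hcard, h1]
        norm_num
    · refine Or.inr (Or.inr (Or.inl ⟨F, i1, i2, hp, ?_, ⟨e⟩⟩))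
      by_contra hlt
      push Not at hlt
      have hlt' : Fintype.card F = 2 ∨ Fintype.card F = 3 := by
        have := hp.two_le
        interval_cases h : Fintype.card F
        · exact Or.inl rfl
        · exact Or.inr rfl
        · norm_num at hp
      rcases hlt' with hF | hF
      · have h1 := Cfsg.Agent.SmallSimple.PSLTwoPart.card_psl_two_even (F := F) (by rw [hF]; decide)
        rw [hF] at h1
        apply hsol 1 1
        rw [hcard, h1]
        norm_num
      · have h1 := Cfsg.Agent.SmallSimple.PSLTwoPart.card_psl_two_odd (F := F) (by rw [hF]; decide)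
        rw [hF] at h1
        apply hsol 2 1
        rw [hcard]
        omega
  · exact Or.inr (Or.inr (Or.inr (Or.inl ⟨F, i1, i2, hF, ⟨e⟩⟩)))
  · refine Or.inr (Or.inr (Or.inr (Or.inr (Cfsg.Agent.ThreePrime.Main.isoSuzuki hnab ?_))))
    obtain ⟨-, m, hm, hc⟩ := h
    rw [hc]
    intro h3
    have h4 : 2 ^ (2 * m + 1) % 3 = 2 := by
      rw [pow_succ, pow_mul, Nat.mul_mod, Nat.pow_mod]
      norm_num
    have h5 : 1 ≤ 2 ^ (2 * m + 1) := Nat.one_le_two_pow
    generalize 2 ^ (2 * m + 1) = q at *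
    rcases (Nat.prime_three.dvd_mul).1 h3 with h6 | h6
    · rcases (Nat.prime_three.dvd_mul).1 h6 with h7 | h7
      · have := Nat.prime_three.dvd_of_dvd_pow h7
        omega
      · have h8 : (q ^ 2 + 1) % 3 = 2 := by
          rw [Nat.add_mod, Nat.pow_mod, h4]
        omega
    · omega

/-- `2 ≠ 0` in a field of odd order -/
theorem two_ne_zero_of_odd {F : Type*} [Field F] [Fintype F] (h : Odd (Fintype.card F)) : (2 : F) ≠ 0 := by
  intro h2
  obtain ⟨r, hr⟩ := CharP.exists F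
  have hrp : r.Prime := CharP.char_is_prime F r
  have : Fact r.Prime := ⟨hrp⟩
  obtain ⟨n, -, hn⟩ := FiniteField.card F r
  have h3 : ((2 : ℕ) : F) = 0 := by exact_mod_cast h2
  rw [CharP.cast_eq_zero_iff F r] at h3
  have h4 : r = 2 := (Nat.prime_dvd_prime_iff_eq hrp Nat.prime_two).1 h3
  rw [hn, h4] at h
  exact (Nat.not_even_iff_odd.2 h) ((Nat.even_pow.2 ⟨even_two, n.ne_zero⟩))

theorem charP_two_of {F : Type*} [Field F] [Fintype F] {n : ℕ} (h : Fintype.card F = 2 ^ n) : CharP F 2 := by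
  obtain ⟨r, hr⟩ := CharP.exists F
  have hrp : r.Prime := CharP.char_is_prime F r
  have : Fact r.Prime := ⟨hrp⟩
  obtain ⟨k, -, hk⟩ := FiniteField.card F r
  have h1 : r ∣ 2 ^ n := by
    rw [← h, hk]
    exact dvd_pow_self r k.ne_zero
  have h2 : r = 2 := (Nat.prime_dvd_prime_iff_eq hrp Nat.prime_two).1 (hrp.dvd_of_dvd_pow h1)
  rwa [← h2]

/-- `3 ≠ 0` in a field of order prime to three -/
theorem three_ne_zero_of {F : Type*} [Field F] [Fintype F] (h : ¬ 3 ∣ Fintype.card F) : (3 : F) ≠ 0 := by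
  intro h2
  obtain ⟨r, hr⟩ := CharP.exists F
  have hrp : r.Prime := CharP.char_is_prime F r
  have : Fact r.Prime := ⟨hrp⟩
  obtain ⟨n, -, hn⟩ := FiniteField.card F r
  have h3 : ((3 : ℕ) : F) = 0 := by exact_mod_cast h2
  rw [CharP.cast_eq_zero_iff F r] at h3
  have h4 : r = 3 := (Nat.prime_dvd_prime_iff_eq hrp Nat.prime_three).1 h3
  apply h
  rw [hn, h4]
  exact dvd_pow_self 3 n.ne_zero

theorem oneCl_three_psl {F : Type*} [Field F] [Fintype F] (h : ¬ 3 ∣ Fintype.card F) :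
    OneCl (Matrix.ProjectiveSpecialLinearGroup (Fin 2) F) 3 := fun _ _ hx hy =>
  PslThree.exists_conj_psl (three_ne_zero_of h) hx hy

/-- **the almost simple step** -/
theorem almost (hCN : IsCNGroup G) (hG : ¬ Group.IsSolvable G) (hO : ∀ p : ℕ, p.Prime → pCore p G = ⊥) :
    (IsSimpleGroup G ∧ LList G) ∨ ∃ N : Subgroup G, N.Normal ∧ N.index = 2 ∧
      ∃ (F : Type) (_ : Field F) (_ : Fintype F), Fintype.card F = 9 ∧
        Nonempty (N ≃* Matrix.ProjectiveSpecialLinearGroup (Fin 2) F) := by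
  have hnt : Nontrivial G := by
    by_contra h
    rw [not_nontrivial_iff_subsingleton] at h
    exact hG inferInstance
  obtain ⟨N, hN, hsim, hns, hcen⟩ := exists_simple_normal hCN hnt hO
  have hCIT : ∀ t y : G, orderOf t = 2 → (orderOf y).Coprime 2 → t * y = y * t → y = 1 :=
    fun t y ht hy hty => cit hCN hN hsim hns ht hy hty
  have hNCN : IsCNGroup N := Cfsg.Agent.OddOrderLocal.CNBasic.isCNGroup_subgroup hCN N
  have d2 : 2 ∣ Nat.card N := by
    by_contra h
    apply hns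
    apply Cfsg.Agent.S0183.result _ hNCN
    rw [← Nat.not_even_iff_odd, even_iff_two_dvd]
    exact h
  have hL := llist_of hsim hns hNCN
  have fin : N = ⊤ → IsSimpleGroup G ∧ LList G := by
    intro h
    have e : N ≃* G := (MulEquiv.subgroupCongr h).trans topEquiv
    have hsG : IsSimpleGroup G := e.symm.isSimpleGroup
    exact ⟨hsG, llist_of hsG hG hCN⟩
  rcases hL with ⟨F, i1, i2, n, hn, hF, ⟨e⟩⟩ | ⟨F, i1, i2, hF, ⟨e⟩⟩ | ⟨F, i1, i2, hp, h5, ⟨e⟩⟩ |
    ⟨F, i1, i2, hF, ⟨e⟩⟩ | h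
  · left
    apply fin
    have d3 : 3 ∣ Nat.card N := by
      rw [Nat.card_congr e.toEquiv]
      exact Cfsg.Agent.ThreePrime.OrderThree.three_dvd_card_psl F
    have hch : CharP F 2 := charP_two_of hF
    refine eq_top_of_classes hCIT hN ?_ ((oneCl_three_psl ?_).of_equiv e) d2 d3
    · intro x y hx hy
      exact Cfsg.Agent.WeakTI.PslTwo.exists_conj e (sq_of hx).2 (sq_of hx).1 (sq_of hy).2 (sq_of hy).1
    · rw [hF]
      intro h
      have := Nat.prime_three.dvd_of_dvd_pow h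
      omega
  · have d3 : 3 ∣ Nat.card N := by
      rw [Nat.card_congr e.toEquiv]
      exact Cfsg.Agent.ThreePrime.OrderThree.three_dvd_card_psl F
    have h2 : (2 : F) ≠ 0 := two_ne_zero_of_odd (by rw [hF]; decide)
    have hthree : ∀ x y z : N, orderOf x = 3 → orderOf y = 3 → orderOf z = 3 →
        (∃ g, g * x * g⁻¹ = y) ∨ (∃ g, g * x * g⁻¹ = z) ∨ ∃ g, g * y * g⁻¹ = z := by
      intro x y z hx hy hz
      have key : ∀ a b : N, (∃ g, g * e a * g⁻¹ = e b) → ∃ g, g * a * g⁻¹ = b := by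
        rintro a b ⟨g, hg⟩
        refine ⟨e.symm g, e.injective ?_⟩
        rw [map_mul, map_mul, map_inv, e.apply_symm_apply, hg]
      rcases PslThree.exists_conj_psl_three (x := e x) (y := e y) (z := e z) (by rw [orderOf_congr', hx])
        (by rw [orderOf_congr', hy]) (by rw [orderOf_congr', hz]) with h | h | h
      · exact Or.inl (key _ _ h)
      · exact Or.inr (Or.inl (key _ _ h))
      · exact Or.inr (Or.inr (key _ _ h))
    rcases index_le_two hCIT hN (fun x y hx hy =>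
      Cfsg.Agent.Lib.PSL2Torus.conj_inv h2 e (sq_of hx).1 (sq_of hx).2 (sq_of hy).1 (sq_of hy).2)
      hthree d2 d3 with h | h
    · exact Or.inl (fin h)
    · exact Or.inr ⟨N, hN, h, F, i1, i2, hF, ⟨e⟩⟩
  · left
    apply fin
    have d3 : 3 ∣ Nat.card N := by
      rw [Nat.card_congr e.toEquiv]
      exact Cfsg.Agent.ThreePrime.OrderThree.three_dvd_card_psl F
    have h2 : (2 : F) ≠ 0 := two_ne_zero_of_odd (hp.odd_of_ne_two (by omega))
    refine eq_top_of_classes hCIT hN ?_ ((oneCl_three_psl ?_).of_equiv e) d2 d3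
    · intro x y hx hy
      exact Cfsg.Agent.Lib.PSL2Torus.conj_inv h2 e (sq_of hx).1 (sq_of hx).2 (sq_of hy).1 (sq_of hy).2
    · intro h
      have := (Nat.prime_dvd_prime_iff_eq Nat.prime_three hp).1 h
      omega
  · left
    apply fin
    have o2 : OneCl N 2 := OneCl.of_equiv e (fun x y hx hy =>
      isConj_iff.1 (Cfsg.Agent.S0820.result hF x y hx hy))
    have o3 : OneCl N 3 := OneCl.of_equiv e (fun x y hx hy => PslThreeFour.exists_conj hF hx hy)
    have d3 : 3 ∣ Nat.card N := by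
      rw [Nat.card_congr e.toEquiv]
      exact PslThreeFour.three_dvd_card F
    exact eq_top_of_classes hCIT hN o2 o3 d2 d3
  · left
    apply fin
    exact eq_top_of_suzuki hCIT hN hcen h d2

end Cfsg.Agent.H574.CNRad
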