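import Mathlib
import Cfsg.Agent.H574.CNCit
import Cfsg.Agent.OddCyclic.T1PslPrime

/-!
# Modules over `𝔽₂` on which the elements of order three act without fixed points

No group containing `3 × 3` has such a non-trivial module, nor has `PSL₂(p)`, `p ≥ 7` a prime.
-/

set_option autoImplicit false

namespace Cfsg.Agent.H574.CNMod

open Subgroup Cfsg

section Aut

variable {V : Type*} [CommGroup V]

theorem nine {a b c d e h i j k : V} (n1 : a * b * c = 1) (n1b : d * e * h = 1) (n1c : i * j * k = 1)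
    (n2 : a * d * i = 1) (n3 : a * e * k = 1) (n4 : a * j * h = 1) : a * a * a = 1 := by
  calc a * a * a = a * a * a * ((a * b * c) * (d * e * h) * (i * j * k)) := by rw [n1, n1b, n1c]; simp
    _ = (a * b * c) * (a * d * i) * (a * e * k) * (a * j * h) := by
      simp only [mul_comm, mul_left_comm]
    _ = 1 := by rw [n1, n2, n3, n4]; simp

theorem false_of_nine [Nontrivial V] (hV : ∀ v : V, v * v = 1) {f g : MulAut V} (hfg : f * g = g * f)
    (hf3 : f * f * f = 1) (hg3 : g * g * g = 1) (F1 : ∀ v, f v = v → v = 1) (F2 : ∀ v, g v = v → v = 1)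
    (F3 : ∀ v, (f * g) v = v → v = 1) (F4 : ∀ v, (f * (g * g)) v = v → v = 1) : False := by
  obtain ⟨v, hv⟩ := exists_ne (1 : V)
  have hc : ∀ w, g (f w) = f (g w) := fun w => by rw [← MulAut.mul_apply, ← hfg, MulAut.mul_apply]
  have hg3' : ∀ w, g (g (g w)) = w := fun w => by
    have := congrArg (fun φ : MulAut V => φ w) hg3
    simpa [MulAut.mul_apply] using this
  have hff : ∀ w, f (f (f w)) = w := fun w => by
    have := congrArg (fun φ : MulAut V => φ w) hf3
    simpa [MulAut.mul_apply] using this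
  have h3 : (f * g) * (f * g) * (f * g) = 1 := by
    ext w
    simp only [MulAut.mul_apply, hc, hg3', hff, MulAut.one_apply]
  have h4 : (f * (g * g)) * (f * (g * g)) * (f * (g * g)) = 1 := by
    ext w
    simp only [MulAut.mul_apply, hc, hg3', hff, MulAut.one_apply]
  have N := @Cfsg.Agent.OddCyclic.T1PslPrime.triple V _
  have n1 := N hf3 F1 v
  have n1b := N hf3 F1 (g v)
  have n1c := N hf3 F1 (g (g v))
  have n2 := N hg3 F2 v
  have n3 := N h3 F3 v
  have n4 := N h4 F4 v
  simp only [MulAut.mul_apply, hc, hg3'] at n3 n4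
  have h5 := nine n1 n1b n1c n2 n3 n4
  rw [hV, one_mul] at h5
  exact hv h5

theorem false_of_33 [Nontrivial V] (hV : ∀ v : V, v * v = 1) {K : Type*} [Group K] (ρ : K →* MulAut V)
    (hfpf : ∀ x, orderOf x = 3 → ∀ v, ρ x v = v → v = 1) {x y : K} (hxy : x * y = y * x)
    (hx : orderOf x = 3) (hy : orderOf y = 3) (hxy3 : orderOf (x * y) = 3) (hxyy : orderOf (x * (y * y)) = 3) :
    False := by
  have h3 : ∀ z : K, orderOf z = 3 → ρ z * ρ z * ρ z = 1 := by
    intro z hz
    rw [← map_mul, ← map_mul]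
    have : z * z * z = 1 := by
      have := pow_orderOf_eq_one z
      rwa [hz, pow_succ, pow_two] at this
    rw [this, map_one]
  refine false_of_nine hV (f := ρ x) (g := ρ y) (by rw [← map_mul, hxy, map_mul]) (h3 x hx) (h3 y hy)
    (hfpf x hx) (hfpf y hy) ?_ ?_
  · rw [← map_mul]; exact hfpf _ hxy3
  · rw [← map_mul, ← map_mul]; exact hfpf _ hxyy

/-- `PSL₂(p)` -/
theorem not_psl_prime {F : Type*} [Field F] [Fintype F] (hp : (Fintype.card F).Prime) (h7 : 7 ≤ Fintype.card F)
    (hV : ∀ v : V, v * v = 1) [Nontrivial V] [Finite V]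
    (ρ : Matrix.ProjectiveSpecialLinearGroup (Fin 2) F →* MulAut V)
    (hfpf : ∀ x, orderOf x = 3 → ∀ v, ρ x v = v → v = 1) : False := by
  have : Fact (Fintype.card F).Prime := ⟨hp⟩
  have : CharP F (Fintype.card F) := charP_of_card_eq_prime rfl
  have hne : ∀ n : ℕ, 0 < n → n < 7 → (n : F) ≠ 0 := by
    intro n h0 hn h
    rw [CharP.cast_eq_zero_iff F (Fintype.card F)] at h
    exact absurd (Nat.le_of_dvd h0 h) (by omega)
  have h2 : (2 : F) ≠ 0 := by exact_mod_cast hne 2 (by norm_num) (by norm_num)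
  have h3 : (3 : F) ≠ 0 := by exact_mod_cast hne 3 (by norm_num) (by norm_num)
  let π : Matrix.SpecialLinearGroup (Fin 2) F →* Matrix.ProjectiveSpecialLinearGroup (Fin 2) F :=
    QuotientGroup.mk' _
  have hneg : ∀ h, π (Cfsg.Agent.OddCyclic.T1PslPrime.mk2 (-1) 0 0 (-1) h) = 1 := by
    intro h
    apply (QuotientGroup.eq_one_iff _).mpr
    rw [Matrix.SpecialLinearGroup.mem_center_iff]
    refine ⟨-1, by simp, ?_⟩
    ext i j
    fin_cases i <;> fin_cases j <;> simp [Cfsg.Agent.OddCyclic.T1PslPrime.mk2]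
  refine Cfsg.Agent.OddCyclic.T1PslPrime.not_act hp h7 (ρ.comp π) ⟨h2, hV, ?_, ?_⟩
  · intro h
    rw [MonoidHom.comp_apply, hneg, map_one]
  · intro a b c d h ht v hv
    refine hfpf (π (Cfsg.Agent.OddCyclic.T1PslPrime.mk2 a b c d h)) ?_ v hv
    apply orderOf_eq_prime
    · rw [pow_succ, pow_two, ← map_mul, ← map_mul, Cfsg.Agent.OddCyclic.T1PslPrime.mk2_mul,
        Cfsg.Agent.OddCyclic.T1PslPrime.mk2_mul]
      rw [← hneg (by ring)]
      congr 1
      have hd : d = 1 - a := by linear_combination ht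
      subst hd
      apply Cfsg.Agent.OddCyclic.T1PslPrime.mk2_congr
      · linear_combination (-a - 1) * h
      · linear_combination (-b) * h
      · linear_combination (-c) * h
      · linear_combination (a - 2) * h
    · intro h1
      have h4 := (QuotientGroup.eq_one_iff _).mp h1
      rw [Matrix.SpecialLinearGroup.mem_center_iff] at h4
      obtain ⟨r, _, hr⟩ := h4
      have e00 := congrFun (congrFun hr 0) 0
      have e11 := congrFun (congrFun hr 1) 1
      have e01 := congrFun (congrFun hr 0) 1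
      simp [Cfsg.Agent.OddCyclic.T1PslPrime.mk2] at e00 e11 e01
      apply h3
      have hda : d = a := by rw [← e11, ← e00]
      subst hda
      rw [← e01] at h
      linear_combination (-4 : F) * h + (2 * d + 1) * ht

end Aut

/-! ### `3 × 3` in `PSL₂(9)` and `PSL₃(4)` -/

section Psl

/-- four elements of order three in `3 × 3` -/
def ThreeThree {K : Type*} [Group K] (x y : K) : Prop :=
  x * y = y * x ∧ orderOf x = 3 ∧ orderOf y = 3 ∧ orderOf (x * y) = 3 ∧ orderOf (x * (y * y)) = 3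

variable {F : Type*} [Field F]

/-- upper unipotent matrices -/
def up (a : F) : Matrix.SpecialLinearGroup (Fin 2) F := ⟨!![1, a; 0, 1], by simp [Matrix.det_fin_two]⟩

theorem up_mul (a b : F) : up a * up b = up (a + b) := by
  apply Subtype.ext
  rw [Matrix.SpecialLinearGroup.coe_mul]
  ext i j
  fin_cases i <;> fin_cases j <;> simp [up, Matrix.mul_apply, Fin.sum_univ_two, add_comm]

theorem orderOf_up (h3 : (3 : F) = 0) {a : F} (ha : a ≠ 0) :
    orderOf (QuotientGroup.mk (up a) : Matrix.ProjectiveSpecialLinearGroup (Fin 2) F) = 3 := by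
  have : Fact (Nat.Prime 3) := ⟨Nat.prime_three⟩
  apply orderOf_eq_prime
  · rw [pow_succ, pow_two, ← QuotientGroup.mk_mul, ← QuotientGroup.mk_mul, up_mul, up_mul]
    have h : a + a + a = 0 := by linear_combination a * h3
    rw [h]
    have h0 : up (0 : F) = 1 := by
      apply Subtype.ext
      ext i j
      fin_cases i <;> fin_cases j <;> simp [up]
    rw [h0, QuotientGroup.mk_one]
  · intro h
    have h1 := (QuotientGroup.eq_one_iff _).1 h
    rw [Matrix.SpecialLinearGroup.mem_center_iff] at h1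
    obtain ⟨r, -, hr⟩ := h1
    have e1 := congrFun (congrFun hr 0) 1
    simp [up] at e1
    exact ha e1.symm

theorem threeThree_nine [Fintype F] (hF : Fintype.card F = 9) :
    ∃ x y : Matrix.ProjectiveSpecialLinearGroup (Fin 2) F, ThreeThree x y := by
  classical
  have h3 : (3 : F) = 0 := by
    have h1 : ((9 : ℕ) : F) = 0 := by rw [← hF]; exact Nat.cast_card_eq_zero F
    have h2 : (3 : F) * 3 = 0 := by
      have : (3 : F) * 3 = ((9 : ℕ) : F) := by norm_num
      rw [this, h1]
    rcases mul_eq_zero.1 h2 with h | h <;> exact h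
  obtain ⟨t, ht⟩ : ∃ t : F, t ∉ ({0, 1, -1} : Finset F) := by
    by_contra h
    push Not at h
    have h1 : (Finset.univ : Finset F) ⊆ {0, 1, -1} := fun t _ => h t
    have h2 := Finset.card_le_card h1
    rw [Finset.card_univ, hF] at h2
    have h4 : ({0, 1, -1} : Finset F).card ≤ 3 := Finset.card_le_three
    omega
  simp only [Finset.mem_insert, Finset.mem_singleton, not_or] at ht
  obtain ⟨ht0, ht1, ht2⟩ := ht
  refine ⟨QuotientGroup.mk (up 1), QuotientGroup.mk (up t), ?_, orderOf_up h3 one_ne_zero, orderOf_up h3 ht0, ?_, ?_⟩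
  · rw [← QuotientGroup.mk_mul, ← QuotientGroup.mk_mul, up_mul, up_mul, add_comm]
  · rw [← QuotientGroup.mk_mul, up_mul]
    apply orderOf_up h3
    intro h
    apply ht2
    linear_combination h
  · rw [← QuotientGroup.mk_mul, ← QuotientGroup.mk_mul, up_mul, up_mul]
    apply orderOf_up h3
    intro h
    apply ht1
    linear_combination t * h3 - h

theorem threeThree_four [Fintype F] (hF : Fintype.card F = 4) :
    ∃ x y : Matrix.ProjectiveSpecialLinearGroup (Fin 3) F, ThreeThree x y := by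
  classical
  have : Fact (Nat.Prime 3) := ⟨Nat.prime_three⟩
  -- a primitive cube root of one
  obtain ⟨w, hw⟩ : ∃ t : F, t ∉ ({0, 1} : Finset F) := by
    by_contra h
    push Not at h
    have h1 : (Finset.univ : Finset F) ⊆ {0, 1} := fun t _ => h t
    have h2 := Finset.card_le_card h1
    rw [Finset.card_univ, hF] at h2
    have h4 : ({0, 1} : Finset F).card ≤ 2 := Finset.card_le_two
    omega
  simp only [Finset.mem_insert, Finset.mem_singleton, not_or] at hw
  obtain ⟨hw0, hw1⟩ := hw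
  have hw3 : w ^ 3 = 1 := by
    have := FiniteField.pow_card_sub_one_eq_one w hw0
    rwa [hF] at this
  let s : Matrix.SpecialLinearGroup (Fin 3) F := ⟨!![0, 0, 1; 1, 0, 0; 0, 1, 0], by simp [Matrix.det_fin_three]⟩
  let d : Matrix.SpecialLinearGroup (Fin 3) F := ⟨!![1, 0, 0; 0, w, 0; 0, 0, w ^ 2], by
    simp [Matrix.det_fin_three]
    linear_combination hw3⟩
  let c : Matrix.SpecialLinearGroup (Fin 3) F := ⟨!![w, 0, 0; 0, w, 0; 0, 0, w], by
    simp [Matrix.det_fin_three]
    linear_combination hw3⟩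
  have hc : (QuotientGroup.mk c : Matrix.ProjectiveSpecialLinearGroup (Fin 3) F) = 1 := by
    apply (QuotientGroup.eq_one_iff _).2
    rw [Matrix.SpecialLinearGroup.mem_center_iff]
    refine ⟨w, by simpa using hw3, ?_⟩
    ext i j
    fin_cases i <;> fin_cases j <;> simp [c]
  have hds : d * s = c * s * d := by
    apply Subtype.ext
    simp only [Matrix.SpecialLinearGroup.coe_mul]
    ext i j
    fin_cases i <;> fin_cases j <;> simp [s, d, c, Matrix.mul_apply, Fin.sum_univ_three]
    all_goals first | ring1 | linear_combination hw3 | linear_combination -hw3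
  have hs3 : s ^ 3 = 1 := by
    apply Subtype.ext
    rw [pow_succ, pow_two, Matrix.SpecialLinearGroup.coe_mul, Matrix.SpecialLinearGroup.coe_mul]
    ext i j
    fin_cases i <;> fin_cases j <;> simp [s, Matrix.mul_apply, Fin.sum_univ_three]
  have hd3 : d ^ 3 = 1 := by
    apply Subtype.ext
    rw [pow_succ, pow_two, Matrix.SpecialLinearGroup.coe_mul, Matrix.SpecialLinearGroup.coe_mul]
    ext i j
    fin_cases i <;> fin_cases j <;> simp [d, Matrix.mul_apply, Fin.sum_univ_three]
    · linear_combination hw3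
    · linear_combination (w ^ 3 + 1) * hw3
  have hncen : ∀ (z : Matrix.SpecialLinearGroup (Fin 3) F) (i j : Fin 3), i ≠ j →
      (z : Matrix (Fin 3) (Fin 3) F) i j ≠ 0 →
      (QuotientGroup.mk z : Matrix.ProjectiveSpecialLinearGroup (Fin 3) F) ≠ 1 := by
    intro z i j hij hz h
    have h1 := (QuotientGroup.eq_one_iff _).1 h
    rw [Matrix.SpecialLinearGroup.mem_center_iff] at h1
    obtain ⟨r, -, hr⟩ := h1
    apply hz
    rw [← hr]
    simp [Matrix.scalar_apply, Matrix.diagonal_apply_ne _ hij]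
  let x : Matrix.ProjectiveSpecialLinearGroup (Fin 3) F := QuotientGroup.mk d
  let y : Matrix.ProjectiveSpecialLinearGroup (Fin 3) F := QuotientGroup.mk s
  have hxy : x * y = y * x := by
    show (QuotientGroup.mk d * QuotientGroup.mk s : Matrix.ProjectiveSpecialLinearGroup (Fin 3) F) =
      QuotientGroup.mk s * QuotientGroup.mk d
    rw [← QuotientGroup.mk_mul, ← QuotientGroup.mk_mul, hds, QuotientGroup.mk_mul, QuotientGroup.mk_mul, hc,
      one_mul, QuotientGroup.mk_mul]
  have hx3 : x ^ 3 = 1 := by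
    show (QuotientGroup.mk d : Matrix.ProjectiveSpecialLinearGroup (Fin 3) F) ^ 3 = 1
    rw [← QuotientGroup.mk_pow, hd3, QuotientGroup.mk_one]
  have hy3 : y ^ 3 = 1 := by
    show (QuotientGroup.mk s : Matrix.ProjectiveSpecialLinearGroup (Fin 3) F) ^ 3 = 1
    rw [← QuotientGroup.mk_pow, hs3, QuotientGroup.mk_one]
  have hx1 : x ≠ 1 := by
    intro h
    have h1 := (QuotientGroup.eq_one_iff d).1 h
    rw [Matrix.SpecialLinearGroup.mem_center_iff] at h1
    obtain ⟨r, -, hr⟩ := h1
    have e0 := congrFun (congrFun hr 0) 0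
    have e1 := congrFun (congrFun hr 1) 1
    simp [d] at e0 e1
    exact hw1 (by rw [← e1, e0])
  have hy1 : y ≠ 1 := hncen s 0 2 (by decide) (by simp [s])
  have hxy1 : x * y ≠ 1 := by
    have := hncen (d * s) 0 2 (by decide) (by
      rw [Matrix.SpecialLinearGroup.coe_mul]
      simp [s, d, Matrix.mul_apply, Fin.sum_univ_three])
    rwa [QuotientGroup.mk_mul] at this
  have hxyy1 : x * (y * y) ≠ 1 := by
    have := hncen (d * (s * s)) 0 1 (by decide) (by
      rw [Matrix.SpecialLinearGroup.coe_mul, Matrix.SpecialLinearGroup.coe_mul]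
      simp [s, d, Matrix.mul_apply, Fin.sum_univ_three])
    rwa [QuotientGroup.mk_mul, QuotientGroup.mk_mul] at this
  have hcom : Commute x y := hxy
  refine ⟨x, y, hxy, orderOf_eq_prime hx3 hx1, orderOf_eq_prime hy3 hy1, orderOf_eq_prime ?_ hxy1,
    orderOf_eq_prime ?_ hxyy1⟩
  · rw [hcom.mul_pow, hx3, hy3, one_mul]
  · rw [(hcom.mul_right hcom).mul_pow, hx3, (Commute.refl y).mul_pow, hy3, one_mul, one_mul]

end Psl

/-! ### the module -/

/-- an element of prime order `p` of a quotient is the image of a `p`-element -/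
theorem exists_lift_prime {G : Type*} [Group G] [Finite G] {p : ℕ} (hp : p.Prime) (C : Subgroup G) [C.Normal]
    (s : G ⧸ C) (hs : orderOf s = p) : ∃ t : G, (QuotientGroup.mk t : G ⧸ C) = s ∧ ∃ k : ℕ, t ^ p ^ k = 1 := by
  obtain ⟨g, rfl⟩ := QuotientGroup.mk_surjective s
  obtain ⟨a, b, -, hb, hab, ⟨k, hk⟩, hb2⟩ := Cfsg.Agent.OddOrderLocal.CNBasic.exists_mul_parts hp g
  refine ⟨a, ?_, k, hk⟩
  have hb1 : (QuotientGroup.mk b : G ⧸ C) = 1 := by
    rw [← orderOf_eq_one_iff]
    have h1 : orderOf (QuotientGroup.mk b : G ⧸ C) ∣ orderOf b := orderOf_map_dvd (QuotientGroup.mk' C) b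
    have h2 : orderOf (QuotientGroup.mk b : G ⧸ C) ∣ p := by
      obtain ⟨n, rfl⟩ := mem_zpowers_iff.1 hb
      rw [← hs]
      have h3 : (QuotientGroup.mk (g ^ n) : G ⧸ C) ∈ zpowers (QuotientGroup.mk g : G ⧸ C) :=
        mem_zpowers_iff.2 ⟨n, (QuotientGroup.mk_zpow C g n).symm⟩
      exact orderOf_dvd_of_mem_zpowers h3
    have h3 : orderOf (QuotientGroup.mk b : G ⧸ C) ∣ Nat.gcd (orderOf b) p := Nat.dvd_gcd h1 h2
    rw [hb2] at h3
    exact Nat.dvd_one.1 h3
  have h4 : (QuotientGroup.mk g : G ⧸ C) = QuotientGroup.mk a * QuotientGroup.mk b := by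
    rw [← QuotientGroup.mk_mul, hab]
  rw [h4, hb1, mul_one]

theorem exists_order_two {G : Type*} [Group G] {v : G} (hv : v ≠ 1) {k : ℕ} (hk : v ^ 2 ^ k = 1) :
    ∃ m : ℕ, orderOf (v ^ m) = 2 := by
  have h1 : orderOf v ∣ 2 ^ k := orderOf_dvd_of_pow_eq_one hk
  obtain ⟨l, hl, hl2⟩ := (Nat.dvd_prime_pow Nat.prime_two).1 h1
  have hl0 : l ≠ 0 := by
    rintro rfl
    rw [pow_zero, orderOf_eq_one_iff] at hl2
    exact hv hl2
  obtain ⟨m, rfl⟩ := Nat.exists_eq_succ_of_ne_zero hl0
  refine ⟨2 ^ m, ?_⟩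
  rw [orderOf_pow' v (by positivity), hl2, Nat.succ_eq_add_one]
  rw [Nat.gcd_eq_right (pow_dvd_pow 2 (Nat.le_succ m)), pow_succ]
  exact Nat.mul_div_cancel_left 2 (by positivity)

universe u

theorem false_of_module {G : Type u} [Group G] [Finite G] (hCN : IsCNGroup G) (hG : ¬ Group.IsSolvable G)
    (hQ : pCore 2 G ≠ ⊥) {K : Type*} [Group K] (f : K →* G ⧸ pCore 2 G) (hf : Function.Injective f)
    (key : ∀ (V : Type u) [CommGroup V] [Finite V] [Nontrivial V], (∀ v : V, v * v = 1) →
      ∀ ρ : K →* MulAut V, (∀ x, orderOf x = 3 → ∀ v, ρ x v = v → v = 1) → False) : False := by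
  have : Fact (Nat.Prime 2) := ⟨Nat.prime_two⟩
  have hQp : IsPGroup 2 (pCore 2 G) := Lib.Cores.pCore_isPGroup 2
  obtain ⟨V₀, hVn, hVQ, ⟨z, hz, hz1⟩, hVc⟩ := CNRad.exists_center (Lib.Cores.pCore_normal 2) hQp hQ
  have hab : ∀ a ∈ V₀, ∀ b ∈ V₀, a * b = b * a := fun a ha b hb => hVc b hb a (hVQ ha)
  let V : Subgroup G :=
    { carrier := {x | x ∈ V₀ ∧ x * x = 1}
      one_mem' := ⟨V₀.one_mem, one_mul 1⟩
      mul_mem' := by
        rintro a b ⟨ha, ha2⟩ ⟨hb, hb2⟩
        refine ⟨V₀.mul_mem ha hb, ?_⟩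
        calc a * b * (a * b) = a * (b * a) * b := by group
          _ = a * (a * b) * b := by rw [hab b hb a ha]
          _ = (a * a) * (b * b) := by group
          _ = 1 := by rw [ha2, hb2, one_mul]
      inv_mem' := by
        rintro a ⟨ha, ha2⟩
        refine ⟨V₀.inv_mem ha, ?_⟩
        rw [← mul_inv_rev, ha2, inv_one] }
  have hV' : V.Normal := by
    constructor
    rintro a ⟨ha, ha2⟩ g
    refine ⟨hVn.conj_mem a ha g, ?_⟩
    calc g * a * g⁻¹ * (g * a * g⁻¹) = g * (a * a) * g⁻¹ := by group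
      _ = 1 := by rw [ha2, mul_one, mul_inv_cancel]
  have hVne : Nontrivial V := by
    obtain ⟨k, hk⟩ := CNRad.orderOf_eq_of_mem hQp (hVQ hz)
    obtain ⟨m, hm⟩ := exists_order_two hz1 hk
    refine ⟨⟨⟨z ^ m, V₀.pow_mem hz m, ?_⟩, 1, ?_⟩⟩
    · rw [← pow_two, ← hm, pow_orderOf_eq_one]
    · intro h
      have : z ^ m = 1 := congrArg Subtype.val h
      rw [this, orderOf_one] at hm
      omega
  let _ : CommGroup V := { (inferInstance : Group V) with
    mul_comm := fun a b => Subtype.ext (hab a a.2.1 b b.2.1) }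
  let ρ₀ : G →* MulAut V := MulAut.conjNormal
  let ρ₁ : G ⧸ pCore 2 G →* MulAut V := QuotientGroup.lift (pCore 2 G) ρ₀ (by
    intro q hq
    ext v
    show q * (v : G) * q⁻¹ = v
    rw [hVc v v.2.1 q hq, mul_inv_cancel_right])
  refine key V (fun v => Subtype.ext v.2.2) (ρ₁.comp f) ?_
  intro x hx v hv
  have hfx : orderOf (f x) = 3 := by rw [orderOf_injective f hf, hx]
  obtain ⟨a, ha, k, hk⟩ := exists_lift_prime Nat.prime_three (pCore 2 G) (f x) hfx
  have ha1 : a ≠ 1 := by
    rintro rfl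
    rw [QuotientGroup.mk_one] at ha
    rw [← ha, orderOf_one] at hfx
    omega
  have h1 : ((ρ₁ (f x)) v : G) = a * v * a⁻¹ := by
    rw [← ha]
    rfl
  have h2 : a * (v : G) * a⁻¹ = v := by
    rw [← h1]
    exact congrArg Subtype.val hv
  apply Subtype.ext
  refine CNRad.fpf hCN hG (x := a) (q := (v : G)) ?_ ha1 (hVQ v.2.1) ?_
  · exact ((Nat.Coprime.pow_left k (by norm_num : Nat.Coprime 3 2))).coprime_dvd_left
      (orderOf_dvd_of_pow_eq_one hk)
  · rwa [mul_inv_eq_iff_eq_mul] at h2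

end Cfsg.Agent.H574.CNMod
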